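import Cfsg.Agent.Coprime.Action

/-!
Coprime automorphisms fixing an involution centralizer.

Let `α` be an automorphism of `G` of order coprime to `|G|`, `F` its fixed-point subgroup and `τ` an
involution with `C(τ) ≤ F`.  If no nontrivial normal subgroup lies in `F` and `F ≠ G`, then `τ` is
the only conjugate of itself in `F`.

Proof: every `α`-invariant 2-subgroup lies in `F`; so for `y ∈ F` every conjugate `u` of `τ` with
`u * y` again a conjugate is conjugate inside `N*(y)` to such an element of `F`.  Counting pairs of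
conjugates of `τ` in the same coset of `F` gives the result.
-/

set_option autoImplicit false

namespace Cfsg.Agent.Invol.CoprimeCentralizer

open scoped Classical

variable {G : Type*} [Group G]

/-- The fixed-point subgroup of an automorphism. -/
def fixSub (α : MulAut G) : Subgroup G where
  carrier := {g | α g = g}
  one_mem' := map_one α
  mul_mem' := by intro a b ha hb; simp only [Set.mem_setOf_eq, map_mul] at *; rw [ha, hb]
  inv_mem' := by intro a ha; simp only [Set.mem_setOf_eq, map_inv] at *; rw [ha]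

@[simp] theorem mem_fixSub {α : MulAut G} {g : G} : g ∈ fixSub α ↔ α g = g := Iff.rfl

variable [Finite G] {α : MulAut G}

/-- An element moved by a fixed element of coprime order is fixed. -/
theorem mem_fixSub_of_left_quotient (hcop : (orderOf α).Coprime (Nat.card G)) {n c : G}
    (h : α n = n * c) (hc : c ∈ fixSub α) : n ∈ fixSub α := by
  have hit : ∀ k : ℕ, (α ^ k) n = n * c ^ k := by
    intro k
    induction k with
    | zero => simp
    | succ k ih =>
      rw [pow_succ', MulAut.mul_apply, ih, map_mul, h, map_pow, mem_fixSub.1 hc, pow_succ' c k,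
        mul_assoc]
  have h1 : c ^ orderOf α = 1 := by
    have := hit (orderOf α)
    rw [pow_orderOf_eq_one, MulAut.one_apply] at this
    exact mul_left_cancel (this.symm.trans (mul_one n).symm)
  have h2 : orderOf c = 1 :=
    Nat.eq_one_of_dvd_coprimes hcop (orderOf_dvd_of_pow_eq_one h1) (orderOf_dvd_natCard c)
  rw [mem_fixSub, h, orderOf_eq_one_iff.1 h2, mul_one]

/-- A subgroup normalizing a fixed subgroup whose centralizer is fixed, is fixed. -/
theorem normalizer_le_fixSub (hcop : (orderOf α).Coprime (Nat.card G)) {T : Subgroup G}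
    (hT : T ≤ fixSub α) (hC : Subgroup.centralizer (T : Set G) ≤ fixSub α) :
    Subgroup.normalizer (T : Set G) ≤ fixSub α := by
  intro n hn
  refine mem_fixSub_of_left_quotient hcop (c := n⁻¹ * α n) (by group) (hC ?_)
  rw [Subgroup.mem_centralizer_iff]
  intro t ht
  have h1 : n * t * n⁻¹ ∈ T := (Subgroup.mem_normalizer_iff.1 hn t).1 ht
  have h2 : α (n * t * n⁻¹) = n * t * n⁻¹ := hT h1
  rw [map_mul, map_mul, map_inv, mem_fixSub.1 (hT ht)] at h2
  calc t * (n⁻¹ * α n) = n⁻¹ * (n * t * n⁻¹) * α n := by group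
    _ = n⁻¹ * (α n * t * (α n)⁻¹) * α n := by rw [h2]
    _ = n⁻¹ * α n * t := by group

/-- The fixed-point subgroup contains a Sylow 2-subgroup through `τ`. -/
theorem exists_fixed_sylow (hcop : (orderOf α).Coprime (Nat.card G)) {τ : G} (hτ : orderOf τ = 2)
    (hC : Subgroup.centralizer ({τ} : Set G) ≤ fixSub α) :
    ∃ S : Sylow 2 G, τ ∈ S ∧ (S : Subgroup G) ≤ fixSub α := by
  have : Fact (Nat.Prime 2) := ⟨Nat.prime_two⟩
  have hτF : τ ∈ fixSub α := hC (Subgroup.mem_centralizer_iff.2 fun h hh => by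
    rw [Set.mem_singleton_iff.1 hh])
  let R : Set (Subgroup G) := {T | IsPGroup 2 T ∧ τ ∈ T ∧ T ≤ fixSub α}
  have hne : R.Nonempty := ⟨Subgroup.zpowers τ,
    IsPGroup.of_card (n := 1) (by rw [Nat.card_zpowers, hτ, pow_one]),
    Subgroup.mem_zpowers τ, Subgroup.zpowers_le.2 hτF⟩
  obtain ⟨T, hT⟩ := (Set.toFinite R).exists_maximal hne
  obtain ⟨hTp, hτT, hTF⟩ := hT.prop
  obtain ⟨S, hS⟩ := hTp.exists_le_sylow
  refine ⟨S, hS hτT, ?_⟩
  by_contra hSF
  have hlt : T.subgroupOf (S : Subgroup G) ≠ ⊤ := fun he =>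
    hSF ((Subgroup.subgroupOf_eq_top.1 he).trans hTF)
  have : Group.IsNilpotent ↥(S : Subgroup G) := S.2.isNilpotent
  have hnc := Group.normalizerCondition_of_isNilpotent (G := ↥(S : Subgroup G))
    (T.subgroupOf (S : Subgroup G)) (lt_top_iff_ne_top.2 hlt)
  set T' := Subgroup.normalizer (T : Set G) ⊓ (S : Subgroup G) with hT'
  have hT'F : T' ≤ fixSub α := inf_le_left.trans (normalizer_le_fixSub hcop hTF
    (le_trans (Subgroup.centralizer_le (Set.singleton_subset_iff.2 hτT)) hC))
  have hT'p : IsPGroup 2 T' := S.2.to_le inf_le_right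
  have hTT' : T ≤ T' := le_inf Subgroup.le_normalizer hS
  have hle : T' ≤ T := hT.le_of_ge ⟨hT'p, hTT' hτT, hT'F⟩ hTT'
  refine hnc.not_ge fun x hx => ?_
  rw [Subgroup.mem_subgroupOf]
  refine hle ⟨?_, x.2⟩
  rw [Subgroup.mem_normalizer_iff] at hx
  show (x : G) ∈ Subgroup.normalizer (T : Set G)
  rw [Subgroup.mem_normalizer_iff]
  intro t
  constructor
  · intro ht
    have := (hx ⟨t, hS ht⟩).1 ht
    simpa [Subgroup.mem_subgroupOf] using this
  · intro ht
    have htS : t ∈ (S : Subgroup G) := by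
      have := Subgroup.mul_mem _ (Subgroup.mul_mem _ (Subgroup.inv_mem _ x.2) (hS ht)) x.2
      simpa [mul_assoc] using this
    have := (hx ⟨t, htS⟩).2 (by simpa [Subgroup.mem_subgroupOf] using ht)
    simpa [Subgroup.mem_subgroupOf] using this

/-- The semidirect product of `G` by the powers of `α`. -/
abbrev Hol (α : MulAut G) : Type _ := G ⋊[(Subgroup.zpowers α).subtype] Subgroup.zpowers α

/-- The embedding of `G`. -/
abbrev emb (α : MulAut G) : G →* Hol α := SemidirectProduct.inl

/-- The element inducing `α`. -/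
def gen (α : MulAut G) : Hol α := SemidirectProduct.inr ⟨α, Subgroup.mem_zpowers α⟩

omit [Finite G] in
theorem gen_conj (α : MulAut G) (g : G) : gen α * emb α g * (gen α)⁻¹ = emb α (α g) := by
  rw [gen, ← map_inv, ← SemidirectProduct.inl_aut]
  rfl

theorem finite_hol (α : MulAut G) : Finite (Hol α) :=
  Finite.of_equiv _ SemidirectProduct.equivProd.symm

theorem gen_le_normalizer {K : Subgroup G} (hK : K.map α.toMonoidHom ≤ K) :
    Subgroup.zpowers (gen α) ≤ Subgroup.normalizer ((K.map (emb α) : Subgroup _) : Set (Hol α)) := by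
  have := finite_hol α
  rw [Subgroup.zpowers_le]
  have hle : (K.map (emb α)).map (MulAut.conj (gen α)).toMonoidHom ≤ K.map (emb α) := by
    rintro _ ⟨_, ⟨k, hk, rfl⟩, rfl⟩
    exact ⟨α k, hK ⟨k, hk, rfl⟩, by simpa [MulAut.conj_apply] using (gen_conj α k).symm⟩
  have heq : (K.map (emb α)).map (MulAut.conj (gen α)).toMonoidHom = K.map (emb α) :=
    Subgroup.eq_of_le_of_card_ge hle
      (Subgroup.card_map_of_injective (f := (MulAut.conj (gen α)).toMonoidHom)
        (MulAut.conj (gen α)).injective).ge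
  rw [Subgroup.mem_normalizer_iff]
  intro x
  constructor
  · intro hx
    have := Subgroup.mem_map_of_mem (MulAut.conj (gen α)).toMonoidHom hx
    rw [heq] at this
    simpa [MulAut.conj_apply] using this
  · intro hx
    rw [← heq] at hx
    obtain ⟨z, hz, hzx⟩ := hx
    have : z = x := (MulAut.conj (gen α)).injective (by simpa [MulAut.conj_apply] using hzx)
    rwa [← this]

theorem coprime_gen (hcop : (orderOf α).Coprime (Nat.card G)) (K : Subgroup G) :
    (Nat.card (Subgroup.zpowers (gen α))).Coprime (Nat.card (K.map (emb α))) := by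
  rw [Subgroup.card_map_of_injective SemidirectProduct.inl_injective, Nat.card_zpowers, gen,
    orderOf_injective _ SemidirectProduct.inr_injective, ← Subgroup.orderOf_coe]
  exact Nat.Coprime.coprime_dvd_right (Subgroup.card_subgroup_dvd_card K) hcop

omit [Finite G] in
theorem solvable_gen (α : MulAut G) : Group.IsSolvable (Subgroup.zpowers (gen α)) := by
  let _ := IsCyclic.commGroup (α := Subgroup.zpowers (gen α))
  exact inferInstance

/-- An invariant subgroup has an invariant Sylow 2-subgroup. -/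
theorem exists_invariant_sylow (hcop : (orderOf α).Coprime (Nat.card G)) {L : Subgroup G}
    (hL : L.map α.toMonoidHom ≤ L) :
    ∃ P : Sylow 2 L, ((P : Subgroup L).map L.subtype).map α.toMonoidHom ≤
      (P : Subgroup L).map L.subtype := by
  have : Fact (Nat.Prime 2) := ⟨Nat.prime_two⟩
  have := finite_hol α
  obtain ⟨Q, hQ⟩ := Coprime.exists_invariant_sylow 2 (gen_le_normalizer hL) (coprime_gen hcop L)
    (Or.inl (solvable_gen α))
  set e : L ≃* L.map (emb α) := L.equivMapOfInjective _ SemidirectProduct.inl_injective with he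
  refine ⟨Q.comapOfInjective e.toMonoidHom e.injective
    (by rw [MonoidHom.range_eq_top.2 e.surjective]; exact le_top), ?_⟩
  rintro _ ⟨_, ⟨x, hx, rfl⟩, rfl⟩
  have hxQ : emb α (x : G) ∈ (Q : Subgroup (L.map (emb α))).map (L.map (emb α)).subtype :=
    ⟨e x, hx, rfl⟩
  have h2 := (Subgroup.mem_normalizer_iff.1 (hQ (Subgroup.mem_zpowers _)) _).1 hxQ
  rw [gen_conj] at h2
  obtain ⟨z, hz, hzx⟩ := h2
  refine ⟨e.symm z, ?_, ?_⟩
  · show e (e.symm z) ∈ (Q : Subgroup (L.map (emb α)))
    rw [e.apply_symm_apply]; exact hz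
  · refine SemidirectProduct.inl_injective (φ := (Subgroup.zpowers α).subtype) ?_
    show ((e (e.symm z) : L.map (emb α)) : Hol α) = emb α (α (x : G))
    rw [e.apply_symm_apply]; exact hzx

/-- With a fixed Sylow 2-subgroup, invariant 2-subgroups are fixed. -/
theorem le_fixSub_of_invariant (hcop : (orderOf α).Coprime (Nat.card G)) (S : Sylow 2 G)
    (hS : (S : Subgroup G) ≤ fixSub α) (U : Subgroup G) (hU : IsPGroup 2 U)
    (hinv : U.map α.toMonoidHom ≤ U) : U ≤ fixSub α := by
  have : Fact (Nat.Prime 2) := ⟨Nat.prime_two⟩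
  have := finite_hol α
  have hi : Function.Injective (emb α) := SemidirectProduct.inl_injective
  set A := Subgroup.zpowers (gen α)
  set K : Subgroup (Hol α) := (⊤ : Subgroup G).map (emb α)
  have hSinv : (S : Subgroup G).map α.toMonoidHom ≤ S := by
    rintro _ ⟨s, hs, rfl⟩
    show α s ∈ (S : Subgroup G)
    rw [mem_fixSub.1 (hS hs)]
    exact hs
  obtain ⟨P, hUP, hPA⟩ := Coprime.exists_invariant_sylow_ge (p := 2)
    (gen_le_normalizer (α := α) (le_top : (⊤ : Subgroup G).map α.toMonoidHom ≤ ⊤))
    (coprime_gen hcop ⊤) (Or.inl (solvable_gen α))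
    (Subgroup.map_mono (f := emb α) (le_top : U ≤ ⊤)) (gen_le_normalizer hinv) (hU.map _)
  have hSK : (S : Subgroup G).map (emb α) ≤ K := Subgroup.map_mono le_top
  obtain ⟨Q, hQ⟩ : ∃ Q : Sylow 2 K,
      (Q : Subgroup K).map K.subtype = (S : Subgroup G).map (emb α) := by
    refine Coprime.exists_sylow_map_eq hSK ?_
    rw [Subgroup.card_map_of_injective hi, Subgroup.card_map_of_injective hi, Subgroup.card_top,
      S.card_eq_multiplicity]
  obtain ⟨c, hc, hcQ⟩ := Coprime.exists_centralizer_conj_sylow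
    (gen_le_normalizer (α := α) (le_top : (⊤ : Subgroup G).map α.toMonoidHom ≤ ⊤))
    (coprime_gen hcop ⊤) (Or.inl (solvable_gen α)) Q P
    (hQ ▸ gen_le_normalizer hSinv) hPA
  intro x hx
  have hxP := hUP (Subgroup.mem_map_of_mem (emb α) hx)
  rw [← hcQ, Coprime.mem_conj_smul, hQ] at hxP
  obtain ⟨s, hs, hsx⟩ := hxP
  have hac : gen α * c = c * gen α :=
    Subgroup.mem_centralizer_iff.1 hc.2 (gen α) (Subgroup.mem_zpowers _)
  have hix : emb α x = c * emb α s * c⁻¹ := by rw [hsx]; group
  refine hi ?_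
  have hs' : gen α * emb α s * (gen α)⁻¹ = emb α s := by rw [gen_conj, mem_fixSub.1 (hS hs)]
  rw [← gen_conj α x, hix]
  calc gen α * (c * emb α s * c⁻¹) * (gen α)⁻¹
      = (gen α * c) * (gen α)⁻¹ * (gen α * emb α s * (gen α)⁻¹) * ((gen α * c) * (gen α)⁻¹)⁻¹ := by
        group
    _ = c * emb α s * c⁻¹ := by rw [hs', hac]; group

/-- The main counting argument. -/
theorem eq_of_isConj_mem_fixSub (hcop : (orderOf α).Coprime (Nat.card G))
    (hne : fixSub α ≠ ⊤) (hcore : (fixSub α).normalCore = ⊥)
    {τ : G} (hτ : orderOf τ = 2) (hC : Subgroup.centralizer ({τ} : Set G) ≤ fixSub α) :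
    ∀ u ∈ fixSub α, IsConj τ u → u = τ := by
  have : Fact (Nat.Prime 2) := ⟨Nat.prime_two⟩
  have := Fintype.ofFinite G
  obtain ⟨S, hτS, hSF⟩ := exists_fixed_sylow hcop hτ hC
  have hinvF := le_fixSub_of_invariant hcop S hSF
  set F := fixSub α with hF
  set C : Finset G := Finset.univ.filter (fun u => IsConj τ u) with hCdef
  have hmemC : ∀ u, u ∈ C ↔ IsConj τ u := fun u => by simp [hCdef]
  have hCconj : ∀ {u} (g : G), u ∈ C → g * u * g⁻¹ ∈ C := fun {u} g hu => by
    rw [hmemC] at hu ⊢
    exact hu.trans (isConj_iff.2 ⟨g, rfl⟩)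
  have hCsq : ∀ {u}, u ∈ C → u * u = 1 := fun {u} hu => by
    obtain ⟨g, rfl⟩ := isConj_iff.1 ((hmemC u).1 hu)
    have hττ : τ * τ = 1 := by rw [← pow_two, ← hτ, pow_orderOf_eq_one]
    rw [conj_mul, hττ]; group
  set Cin := C.filter (fun u => u ∈ F) with hCin
  set Cout := C.filter (fun u => u ∉ F) with hCout
  -- `|Cout| = (n - 1) * a`
  have hτF : τ ∈ F := hSF hτS
  have hCinC : ∀ u ∈ Cin, Subgroup.centralizer ({u} : Set G) ≤ F := by
    intro u hu g hg
    simp only [hCin, Finset.mem_filter] at hu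
    obtain ⟨k, rfl⟩ := isConj_iff.1 ((hmemC u).1 hu.1)
    -- `k` can be taken in `F`
    have hk : k ∈ F := by
      refine mem_fixSub_of_left_quotient hcop (c := k⁻¹ * α k) (by group) (hC ?_)
      rw [Subgroup.mem_centralizer_iff]
      rintro t rfl
      have h2 : α (k * t * k⁻¹) = k * t * k⁻¹ := hu.2
      rw [map_mul, map_mul, map_inv, mem_fixSub.1 hτF] at h2
      calc t * (k⁻¹ * α k) = k⁻¹ * (k * t * k⁻¹) * α k := by group
        _ = k⁻¹ * (α k * t * (α k)⁻¹) * α k := by rw [h2]
        _ = k⁻¹ * α k * t := by group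
    have : k⁻¹ * g * k ∈ Subgroup.centralizer ({τ} : Set G) := by
      rw [Subgroup.mem_centralizer_iff]
      rintro t rfl
      have h3 := Subgroup.mem_centralizer_iff.1 hg _ rfl
      calc t * (k⁻¹ * g * k) = k⁻¹ * ((k * t * k⁻¹) * g) * k := by group
        _ = k⁻¹ * (g * (k * t * k⁻¹)) * k := by rw [h3]
        _ = k⁻¹ * g * k * t := by group
    have h4 := hC this
    have := F.mul_mem (F.mul_mem hk h4) (F.inv_mem hk)
    simpa [mul_assoc] using this
  set a := Cin.card with ha
  have hτCin : τ ∈ Cin := Finset.mem_filter.2 ⟨(hmemC τ).2 (IsConj.refl τ), hτF⟩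
  have hcardC : C.card = Nat.card (G ⧸ F) * a := by
    have := Fintype.ofFinite (G ⧸ F)
    rw [Nat.card_eq_fintype_card, ← Finset.card_univ, ha, ← Finset.card_product]
    symm
    refine Finset.card_bij (fun p _ => p.1.out * p.2 * p.1.out⁻¹) ?_ ?_ ?_
    · intro p hp
      simp only [Finset.mem_product, hCin, Finset.mem_filter] at hp
      exact hCconj _ hp.2.1
    · rintro ⟨q, t⟩ hp ⟨q', t'⟩ hp' heq
      simp only [Finset.mem_product] at hp hp'
      have heq' : q.out * t * q.out⁻¹ = q'.out * t' * q'.out⁻¹ := heq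
      have ht := hp.2; have ht' := hp'.2
      simp only [hCin, Finset.mem_filter] at ht ht'
      set r := q.out⁻¹ * q'.out with hr
      have hrt : t = r * t' * r⁻¹ := by
        calc t = q.out⁻¹ * (q.out * t * q.out⁻¹) * q.out := by group
          _ = r * t' * r⁻¹ := by rw [heq', hr]; group
      obtain ⟨k, hk⟩ := isConj_iff.1 ((hmemC t').1 ht'.1)
      -- `r` differs from a fixed element by an element of `C(t')`
      have hr' : r ∈ F := by
        refine mem_fixSub_of_left_quotient hcop (c := r⁻¹ * α r) (by group) (hCinC t' hp'.2 ?_)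
        rw [Subgroup.mem_centralizer_iff]
        intro x hx
        rw [Set.mem_singleton_iff.1 hx]
        have h2 : α t = t := ht.2
        rw [hrt, map_mul, map_mul, map_inv, mem_fixSub.1 ht'.2] at h2
        calc t' * (r⁻¹ * α r) = r⁻¹ * (r * t' * r⁻¹) * α r := by group
          _ = r⁻¹ * (α r * t' * (α r)⁻¹) * α r := by rw [h2]
          _ = r⁻¹ * α r * t' := by group
      have hq : q = q' := by
        rw [← q.out_eq', ← q'.out_eq', QuotientGroup.eq]
        exact hr'
      subst hq
      simpa using heq'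
    · intro u hu
      obtain ⟨g, rfl⟩ := isConj_iff.1 ((hmemC u).1 hu)
      set q : G ⧸ F := (g : G ⧸ F)
      have hf : q.out⁻¹ * g ∈ F := QuotientGroup.eq.1 q.out_eq'
      refine ⟨(q, (q.out⁻¹ * g) * τ * (q.out⁻¹ * g)⁻¹), ?_, ?_⟩
      · simp only [Finset.mem_product, Finset.mem_univ, true_and, hCin, Finset.mem_filter]
        exact ⟨hCconj _ ((hmemC τ).2 (IsConj.refl τ)),
          F.mul_mem (F.mul_mem hf hτF) (F.inv_mem hf)⟩
      · show q.out * (q.out⁻¹ * g * τ * (q.out⁻¹ * g)⁻¹) * q.out⁻¹ = g * τ * g⁻¹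
        group
  have hsplit : Cin.card + Cout.card = C.card := Finset.card_filter_add_card_filter_not _
  set n := Nat.card (G ⧸ F) with hn
  have hn2 : 2 ≤ n := by
    have h1 : F.index ≠ 1 := fun h => hne (Subgroup.index_eq_one.1 h)
    have h0 : F.index ≠ 0 := Subgroup.index_ne_zero_of_finite
    have h2 : n = F.index := rfl
    omega
  have hout : Cout.card = (n - 1) * a := by
    rw [Nat.sub_mul, one_mul]; omega
  -- pairs in the same coset
  set Y : Finset G := Finset.univ.filter (fun y => y ∈ F) with hY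
  let V : G → Finset G := fun y => C.filter (fun u => u * y ∈ C)
  have hlow : (n - 1) * (a * a) ≤ ∑ y ∈ Y, ((V y).filter (fun u => u ∉ F)).card := by
    have := Fintype.ofFinite (G ⧸ F)
    set T : Finset (G ⧸ F) := Finset.univ.erase ((1 : G) : G ⧸ F) with hT
    let f : G ⧸ F → ℕ := fun q => (Cout.filter (fun u : G => (u : G ⧸ F) = q)).card
    have hTc : T.card = n - 1 := by
      rw [hT, Finset.card_erase_of_mem (Finset.mem_univ _), Finset.card_univ, hn,
        Nat.card_eq_fintype_card]
    have hsum : ∑ q ∈ T, f q = Cout.card := by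
      simp only [f]
      refine (Finset.card_eq_sum_card_fiberwise (f := fun u : G => (u : G ⧸ F)) (s := Cout)
        (t := T) fun u hu => ?_).symm
      simp only [hCout, Finset.coe_filter, Set.mem_setOf_eq] at hu
      simp only [hT, Finset.coe_erase, Finset.coe_univ, Set.mem_diff, Set.mem_univ,
        Set.mem_singleton_iff, true_and]
      intro h
      apply hu.2
      have h' := QuotientGroup.eq.1 h
      simpa using h'
    have hsq : ∑ q ∈ T, f q * f q ≤ ∑ y ∈ Y, ((V y).filter (fun u => u ∉ F)).card := by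
      rw [← Finset.card_sigma]
      calc ∑ q ∈ T, f q * f q
          = (T.sigma fun q => (Cout.filter (fun u : G => (u : G ⧸ F) = q)) ×ˢ
              (Cout.filter (fun u : G => (u : G ⧸ F) = q))).card := by
            rw [Finset.card_sigma]; simp [f]
        _ ≤ (Y.sigma fun y => (V y).filter (fun u => u ∉ F)).card := by
            refine Finset.card_le_card_of_injOn (fun p => ⟨p.2.1⁻¹ * p.2.2, p.2.1⟩) ?_ ?_
            · rintro ⟨q, u, u'⟩ hp
              simp only [Finset.coe_sigma, Set.mem_sigma_iff, Finset.coe_product, Set.mem_prod,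
                Finset.coe_filter, Set.mem_setOf_eq, hCout, Finset.mem_filter] at hp
              obtain ⟨-, ⟨⟨huC, huF⟩, huq⟩, ⟨hu'C, -⟩, hu'q⟩ := hp
              simp only [Finset.coe_sigma, Set.mem_sigma_iff, hY, Finset.coe_filter,
                Set.mem_setOf_eq, Finset.mem_univ, true_and, V, Finset.mem_filter]
              exact ⟨QuotientGroup.eq.1 (huq.trans hu'q.symm),
                ⟨huC, by simpa using hu'C⟩, huF⟩
            · rintro ⟨q, u, u'⟩ hp ⟨q', v, v'⟩ hp' heq
              simp only [Finset.coe_sigma, Set.mem_sigma_iff, Finset.coe_product, Set.mem_prod,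
                Finset.coe_filter, Set.mem_setOf_eq] at hp hp'
              simp only [Sigma.mk.inj_iff, heq_eq_eq] at heq
              obtain ⟨h1, rfl⟩ := heq
              have : u' = v' := mul_left_cancel h1
              subst this
              have : q = q' := hp.2.1.2.symm.trans hp'.2.1.2
              subst this
              rfl
    refine le_trans ?_ hsq
    have hcs := sq_sum_le_card_mul_sum_sq (s := T) (f := f)
    rw [hsum, hTc, hout] at hcs
    simp only [pow_two] at hcs
    have hpos : 0 < n - 1 := by omega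
    refine Nat.le_of_mul_le_mul_left ?_ hpos
    calc (n - 1) * ((n - 1) * (a * a)) = (n - 1) * a * ((n - 1) * a) := by ring
      _ ≤ _ := hcs
  have hup : ∀ y ∈ Y, y ≠ 1 →
      ((V y).filter (fun u => u ∉ F)).card ≤ (n - 2) * ((V y).filter (fun u => u ∈ F)).card := by
    intro y hy hy1
    simp only [hY, Finset.mem_filter, Finset.mem_univ, true_and] at hy
    let L : Subgroup G :=
      { carrier := {g | g * y * g⁻¹ = y ∨ g * y * g⁻¹ = y⁻¹}
        one_mem' := by left; simp
        mul_mem' := by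
          intro g h hg hh
          have key : g * h * y * (g * h)⁻¹ = g * (h * y * h⁻¹) * g⁻¹ := by group
          have keyi : g * y⁻¹ * g⁻¹ = (g * y * g⁻¹)⁻¹ := by group
          simp only [Set.mem_setOf_eq, key] at hg hh ⊢
          rcases hh with hh | hh <;> rw [hh]
          · exact hg
          · rw [keyi]
            rcases hg with hg | hg <;> rw [hg] <;> simp
        inv_mem' := by
          intro g hg
          simp only [Set.mem_setOf_eq, inv_inv] at hg ⊢
          rcases hg with hg | hg
          · left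
            calc g⁻¹ * y * g = g⁻¹ * (g * y * g⁻¹) * g := by rw [hg]
              _ = y := by group
          · right
            calc g⁻¹ * y * g = g⁻¹ * (g * y * g⁻¹)⁻¹ * g := by rw [hg, inv_inv]
              _ = y⁻¹ := by group }
    have hmemL : ∀ g, g ∈ L ↔ g * y * g⁻¹ = y ∨ g * y * g⁻¹ = y⁻¹ := fun g => Iff.rfl
    have hVinv : ∀ l ∈ L, ∀ u ∈ V y, l * u * l⁻¹ ∈ V y := by
      intro l hl u hu
      simp only [V, Finset.mem_filter] at hu ⊢
      refine ⟨hCconj l hu.1, ?_⟩
      rcases (hmemL l).1 hl with h | h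
      · have : l * u * l⁻¹ * y = l * (u * y) * l⁻¹ := by
          conv_lhs => rw [← h]
          group
        rw [this]; exact hCconj l hu.2
      · have huyu : u * y * u = y⁻¹ := by
          have := hCsq hu.2
          calc u * y * u = u * y * (u * y) * y⁻¹ := by group
            _ = y⁻¹ := by rw [this, one_mul]
        have hyl : y = l * y⁻¹ * l⁻¹ := by
          calc y = (l * y * l⁻¹)⁻¹ := by rw [h, inv_inv]
            _ = l * y⁻¹ * l⁻¹ := by group
        have : l * u * l⁻¹ * y = l * (u * (u * y) * u⁻¹) * l⁻¹ := by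
          have hu1 : u * u = 1 := hCsq hu.1
          have hui : u⁻¹ = u := inv_eq_of_mul_eq_one_right hu1
          calc l * u * l⁻¹ * y = l * (u * y⁻¹) * l⁻¹ := by
                conv_lhs => rw [hyl]
                group
            _ = l * (u * (u * y * u)) * l⁻¹ := by rw [huyu]
            _ = l * (u * (u * y) * u⁻¹) * l⁻¹ := by rw [hui]; group
        rw [this]; exact hCconj l (hCconj u hu.2)
    have hVL : ∀ u ∈ V y, u ∈ L := by
      intro u hu
      simp only [V, Finset.mem_filter] at hu
      rw [hmemL]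
      right
      have hui : u⁻¹ = u := inv_eq_of_mul_eq_one_right (hCsq hu.1)
      calc u * y * u⁻¹ = u * y * (u * y) * y⁻¹ := by rw [hui]; group
        _ = y⁻¹ := by rw [hCsq hu.2, one_mul]
    have hLinv : L.map α.toMonoidHom ≤ L := by
      rintro _ ⟨l, hl, rfl⟩
      show α l ∈ L
      rw [hmemL]
      have hy' : α y = y := hy
      rcases (hmemL l).1 hl with h | h
      · left
        have := congrArg α h
        simpa [hy'] using this
      · right
        have := congrArg α h
        simpa [hy'] using this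
    -- each `u ∈ V y` has an `L`-conjugate in `F`
    have hmeet : ∀ u ∈ V y, ∃ l ∈ L, l * u * l⁻¹ ∈ F := by
      intro u hu
      obtain ⟨P, hPinv⟩ := exists_invariant_sylow hcop hLinv
      have hPF : (P : Subgroup L).map L.subtype ≤ F := hinvF _ (P.2.map _) hPinv
      have huL := hVL u hu
      have hu2 : IsPGroup 2 (Subgroup.zpowers (⟨u, huL⟩ : L)) := by
        refine IsPGroup.iff_orderOf.2 fun g => ?_
        have h1 : orderOf g ∣ 2 ^ 1 := by
          refine (orderOf_dvd_natCard g).trans ?_
          rw [Nat.card_zpowers, pow_one]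
          refine orderOf_dvd_of_pow_eq_one (Subtype.ext ?_)
          simp only [V, Finset.mem_filter] at hu
          simpa [pow_two] using hCsq hu.1
        obtain ⟨k, -, hk⟩ := (Nat.dvd_prime_pow Nat.prime_two).1 h1
        exact ⟨k, hk⟩
      obtain ⟨Q, hQ⟩ := hu2.exists_le_sylow
      obtain ⟨l, hl⟩ := MulAction.exists_smul_eq L Q P
      refine ⟨l, l.2, hPF ⟨l * ⟨u, huL⟩ * l⁻¹, ?_, rfl⟩⟩
      rw [← hl]
      show (l * ⟨u, huL⟩ * l⁻¹ : L) ∈ ((l • Q : Sylow 2 L) : Subgroup L)
      rw [Sylow.coe_subgroup_smul, Coprime.mem_conj_smul]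
      have : l⁻¹ * (l * ⟨u, huL⟩ * l⁻¹) * l = (⟨u, huL⟩ : L) := by group
      rw [this]
      exact hQ (Subgroup.mem_zpowers _)
    -- `L` does not meet every coset of `F`
    have := Fintype.ofFinite (G ⧸ F)
    set W : Finset (G ⧸ F) :=
      (Finset.univ.filter (fun l : G => l ∈ L)).image (fun l : G => (l : G ⧸ F)) with hW
    have hWlt : W.card ≤ n - 1 := by
      by_contra hh
      have hWu : W = Finset.univ := by
        apply Finset.eq_univ_of_card
        have h1 := Finset.card_le_univ W
        have h2 : Fintype.card (G ⧸ F) = n := by rw [hn, Nat.card_eq_fintype_card]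
        omega
      have hprod : ∀ g : G, ∃ f ∈ F, ∃ l ∈ L, g = f * l := by
        intro g
        have : ((g⁻¹ : G) : G ⧸ F) ∈ W := by rw [hWu]; exact Finset.mem_univ _
        simp only [hW, Finset.mem_image, Finset.mem_filter, Finset.mem_univ, true_and] at this
        obtain ⟨l, hl, hlq⟩ := this
        have h3 := QuotientGroup.eq.1 hlq
        exact ⟨(l⁻¹ * g⁻¹)⁻¹, F.inv_mem h3, l⁻¹, L.inv_mem hl, by group⟩
      have hyc : y ∈ F.normalCore := by
        intro g
        obtain ⟨f, hf, l, hl, rfl⟩ := hprod g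
        have : f * l * y * (f * l)⁻¹ = f * (l * y * l⁻¹) * f⁻¹ := by group
        rw [this]
        refine F.mul_mem (F.mul_mem hf ?_) (F.inv_mem hf)
        rcases (hmemL l).1 hl with h | h <;> rw [h]
        · exact hy
        · exact F.inv_mem hy
      rw [hcore, Subgroup.mem_bot] at hyc
      exact hy1 hyc
    -- choose coset representatives in `L`
    let rep : G ⧸ F → G := fun q =>
      if h : ∃ l ∈ L, (l : G ⧸ F) = q then h.choose else 1
    have hrep : ∀ l ∈ L, rep (l : G ⧸ F) ∈ L ∧ (rep (l : G ⧸ F))⁻¹ * l ∈ F := by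
      intro l hl
      have h : ∃ l' ∈ L, (l' : G ⧸ F) = (l : G ⧸ F) := ⟨l, hl, rfl⟩
      simp only [rep, dif_pos h]
      exact ⟨h.choose_spec.1, QuotientGroup.eq.1 h.choose_spec.2⟩
    set Vin := (V y).filter (fun u => u ∈ F) with hVin
    have hVsub : V y ⊆ (W ×ˢ Vin).image (fun p => rep p.1 * p.2 * (rep p.1)⁻¹) := by
      intro u hu
      obtain ⟨l, hl, hlu⟩ := hmeet u hu
      obtain ⟨hr1, hr2⟩ := hrep l⁻¹ (L.inv_mem hl)
      set r := rep (l⁻¹ : G) with hr
      refine Finset.mem_image.2 ⟨((l⁻¹ : G), r⁻¹ * u * r), ?_, ?_⟩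
      · refine Finset.mem_product.2 ⟨Finset.mem_image.2 ⟨l⁻¹, by simp [hl], rfl⟩, ?_⟩
        simp only [hVin, Finset.mem_filter]
        refine ⟨?_, ?_⟩
        · have := hVinv r⁻¹ (L.inv_mem hr1) u hu
          simpa using this
        · have : r⁻¹ * u * r = (r⁻¹ * l⁻¹) * (l * u * l⁻¹) * (r⁻¹ * l⁻¹)⁻¹ := by group
          rw [this]
          exact F.mul_mem (F.mul_mem hr2 hlu) (F.inv_mem hr2)
      · show rep ((l⁻¹ : G) : G ⧸ F) * (r⁻¹ * u * r) * (rep ((l⁻¹ : G) : G ⧸ F))⁻¹ = u
        rw [← hr]; group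
    have hVle : (V y).card ≤ (n - 1) * Vin.card :=
      ((Finset.card_le_card hVsub).trans Finset.card_image_le).trans
        (by rw [Finset.card_product]; exact Nat.mul_le_mul_right _ hWlt)
    have hs : Vin.card + ((V y).filter (fun u => u ∉ F)).card = (V y).card :=
      Finset.card_filter_add_card_filter_not _
    have : (n - 1) * Vin.card = Vin.card + (n - 2) * Vin.card := by
      have : n - 1 = 1 + (n - 2) := by omega
      rw [this]; ring
    omega
  have hin : ∑ y ∈ Y, ((V y).filter (fun u => u ∈ F)).card = a * a := by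
    rw [← Finset.card_sigma, ha, ← Finset.card_product]
    refine Finset.card_bij (fun p _ => (p.2, p.2 * p.1)) ?_ ?_ ?_
    · rintro ⟨y, u⟩ hp
      simp only [Finset.mem_sigma, hY, V, Finset.mem_filter, Finset.mem_univ, true_and] at hp
      simp only [Finset.mem_product, hCin, Finset.mem_filter]
      exact ⟨⟨hp.2.1.1, hp.2.2⟩, hp.2.1.2, F.mul_mem hp.2.2 hp.1⟩
    · rintro ⟨y, u⟩ _ ⟨y', u'⟩ _ h
      simp only [Prod.mk.injEq] at h
      obtain ⟨rfl, h⟩ := h
      rw [mul_left_cancel h]
    · rintro ⟨u, v⟩ hp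
      simp only [Finset.mem_product, hCin, Finset.mem_filter] at hp
      refine ⟨⟨u⁻¹ * v, u⟩, ?_, by simp⟩
      simp only [Finset.mem_sigma, hY, V, Finset.mem_filter, Finset.mem_univ, true_and]
      exact ⟨F.mul_mem (F.inv_mem hp.1.2) hp.2.2, ⟨hp.1.1, by simpa using hp.2.1⟩, hp.1.2⟩
  have h1Y : (1 : G) ∈ Y := by simp [hY, one_mem]
  have hV1o : (V 1).filter (fun u => u ∉ F) = Cout := by
    ext u; simp [V, hCout]
  have hV1i : (V 1).filter (fun u => u ∈ F) = Cin := by
    ext u; simp [V, hCin]
  have ha1 : a = 1 := by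
    have e1 := Finset.add_sum_erase Y (fun y => ((V y).filter (fun u => u ∉ F)).card) h1Y
    have e2 := Finset.add_sum_erase Y (fun y => ((V y).filter (fun u => u ∈ F)).card) h1Y
    have hle : ∑ y ∈ Y.erase 1, ((V y).filter (fun u => u ∉ F)).card ≤
        (n - 2) * ∑ y ∈ Y.erase 1, ((V y).filter (fun u => u ∈ F)).card := by
      rw [Finset.mul_sum]
      exact Finset.sum_le_sum fun y hy =>
        hup y (Finset.mem_of_mem_erase hy) (Finset.ne_of_mem_erase hy)
    rw [hV1o] at e1
    rw [hV1i] at e2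
    rw [hin] at e2
    rw [hout] at e1
    rw [← ha] at e2
    have hapos : 1 ≤ a := Finset.card_pos.2 ⟨τ, hτCin⟩
    obtain ⟨m, hm⟩ : ∃ m, n = m + 2 := ⟨n - 2, by omega⟩
    rw [show n - 1 = m + 1 by omega] at e1 hlow
    rw [show n - 2 = m by omega] at hle
    generalize (∑ y ∈ Y.erase 1, ((V y).filter (fun u => u ∉ F)).card) = so at e1 hle
    generalize (∑ y ∈ Y.erase 1, ((V y).filter (fun u => u ∈ F)).card) = si at e2 hle
    generalize (∑ y ∈ Y, ((V y).filter (fun u => u ∉ F)).card) = s at e1 hlow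
    nlinarith
  intro u huF hu
  exact Finset.card_le_one.1 (le_of_eq ha1) u (Finset.mem_filter.2 ⟨(hmemC u).2 hu, huF⟩) τ hτCin

end Cfsg.Agent.Invol.CoprimeCentralizer
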